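import Cfsg.Agent.H782.K5.Fus
import Cfsg.Agent.H634.TwoA
import Cfsg.Agent.S0113
import Cfsg.Agent.S0115
import Cfsg.Agent.H648.ThreeNorm
import Cfsg.Agent.SmallSimple.KleinFourAut

/-!
# At least four classes of nontrivial 2-elements for Sylow 2-subgroups of maximal class of order at least 16
-/

set_option autoImplicit false

open Cfsg

namespace Cfsg.Agent.H782.K5

/-- a 2-group of order `2^n`, `n ≥ 3`, whose abelianization has order 4 has a cyclic subgroup of index 2 -/
theorem exists_cyclic {P : Type*} [Group P] [Finite P] {n : ℕ} (hn : 3 ≤ n) (hP : Nat.card P = 2 ^ n)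
    (h4 : (commutator P).index = 4) : ∃ C : Subgroup P, IsCyclic C ∧ C.index = 2 := by
  have : Fact (Nat.Prime 2) := ⟨Nat.prime_two⟩
  have hPp : IsPGroup 2 P := IsPGroup.of_card hP
  have hcard : Nat.card (P ⧸ commutator P) = 4 := by rw [← Subgroup.index_eq_card]; exact h4
  have hK : IsKleinFour (P ⧸ commutator P) := by
    refine SmallSimple.KleinFourAut.isKleinFour_of_not_isCyclic hcard fun hc => ?_
    have h1 : IsCyclic P := H648.ThreeNorm.isCyclic_of_quotient hPp hc
    have h2 : commutator P = ⊥ := by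
      rw [commutator_eq_bot_iff_center_eq_top]
      have := IsCyclic.commGroup (α := P)
      rw [eq_top_iff]
      intro x _
      rw [Subgroup.mem_center_iff]
      intro y
      obtain ⟨g, hg⟩ := h1.exists_generator
      obtain ⟨a, rfl⟩ := hg x
      obtain ⟨b, rfl⟩ := hg y
      exact (Commute.refl g).zpow_zpow b a
    rw [h2, Subgroup.index_bot, hP] at h4
    have : 2 ^ 3 ≤ 2 ^ n := Nat.pow_le_pow_right (by norm_num) hn
    omega
  exact S0113.result n hn hP ((S0115.result n hn hP).2 hK)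

universe u

variable {G : Type u} [Group G] [Finite G] {M : Ideal AlgInt}

theorem exists_gen (P : Sylow 2 G) {n : ℕ} (hn : 4 ≤ n) (hP : Nat.card P = 2 ^ n)
    (h4 : (commutator P).index = 4) : ∃ r ∈ (P : Subgroup G), orderOf r = 2 ^ (n - 1) ∧
      ∃ y ∈ (P : Subgroup G), orderOf y = 2 ^ (n - 1) ∧ ¬ IsConj r y := by
  have : Fact (Nat.Prime 2) := ⟨Nat.prime_two⟩
  obtain ⟨C, hCc, hC2⟩ := exists_cyclic (n := n) (by omega) hP h4
  obtain ⟨c, hc⟩ := hCc.exists_generator
  have hCcard : Nat.card C = 2 ^ (n - 1) := by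
    have h1 := C.card_mul_index
    rw [hC2, hP] at h1
    have h2 : (2 : ℕ) ^ n = 2 ^ (n - 1) * 2 := by
      rw [← pow_succ]; congr 1; omega
    rw [h2] at h1
    exact Nat.eq_of_mul_eq_mul_right (by norm_num) h1
  have hoc : orderOf c = 2 ^ (n - 1) := by
    rw [orderOf_eq_card_of_forall_mem_zpowers hc, hCcard]
  set r : G := ((c : P) : G) with hr
  have hor : orderOf r = 2 ^ (n - 1) := by
    rw [hr, Subgroup.orderOf_coe, Subgroup.orderOf_coe, hoc]
  have hrP : r ∈ (P : Subgroup G) := (c : P).2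
  have hCn : C.Normal := Subgroup.normal_of_index_eq_two hC2
  have hmem : ∀ x : P, x ∈ C → (x : G) ∈ Subgroup.zpowers r := by
    intro x hx
    obtain ⟨k, hk⟩ := hc ⟨x, hx⟩
    refine ⟨k, ?_⟩
    have := congrArg (fun z : C => ((z : P) : G)) hk
    simpa using this
  have hnorm : ∀ s ∈ (P : Subgroup G), s * r * s⁻¹ ∈ Subgroup.zpowers r := by
    intro s hs
    have := hCn.conj_mem c c.2 ⟨s, hs⟩
    exact hmem _ this
  -- two conjugates at most
  have htwo : ∃ w : G, ∀ s ∈ (P : Subgroup G), s * r * s⁻¹ = r ∨ s * r * s⁻¹ = w := by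
    obtain ⟨t, ht⟩ : ∃ t : P, t ∉ C := by
      by_contra hcon
      push Not at hcon
      have : C = ⊤ := by rw [eq_top_iff]; intro x _; exact hcon x
      rw [this, Subgroup.index_top] at hC2
      omega
    refine ⟨(t : G) * r * (t : G)⁻¹, fun s hs => ?_⟩
    have hcomm : ∀ x : P, x ∈ C → (x : G) * r = r * (x : G) := by
      intro x hx
      obtain ⟨k, hk⟩ := hmem x hx
      rw [← hk]
      exact ((Commute.refl r).zpow_left k).eq
    by_cases hsC : (⟨s, hs⟩ : P) ∈ C
    · left
      have := hcomm ⟨s, hs⟩ hsC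
      rw [show s * r = r * s from this]; group
    · right
      have h1 : t⁻¹ * ⟨s, hs⟩ ∈ C := by
        rw [Subgroup.mul_mem_iff_of_index_two hC2]
        constructor
        · intro h; exact absurd (inv_mem_iff.1 h) ht
        · intro h; exact absurd h hsC
      have h2 := hcomm _ h1
      have h3 : (((t⁻¹ * ⟨s, hs⟩ : P)) : G) = (t : G)⁻¹ * s := rfl
      rw [h3] at h2
      have : s * r = (t : G) * r * ((t : G)⁻¹ * s) := by
        rw [mul_assoc, ← h2]; group
      rw [this]; group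
  obtain ⟨w, hw⟩ := htwo
  have h8 : 8 ≤ 2 ^ (n - 1) := by
    calc 8 = 2 ^ 3 := by norm_num
      _ ≤ _ := Nat.pow_le_pow_right (by norm_num) (by omega)
  have hne : ∀ i j : ℕ, i < 8 → j < 8 → i ≠ j → r ^ i ≠ r ^ j := by
    intro i j hi hj hij h
    exact hij (pow_injOn_Iio_orderOf (by rw [Set.mem_Iio, hor]; omega) (by rw [Set.mem_Iio, hor]; omega) h)
  have hord : ∀ j : ℕ, j % 2 = 1 → orderOf (r ^ j) = 2 ^ (n - 1) := by
    intro j hj
    rw [Nat.Coprime.orderOf_pow, hor]
    rw [hor]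
    exact Nat.Coprime.pow_left _ (Nat.coprime_two_left.2 (Nat.odd_iff.2 hj))
  have hcl : ∀ j : ℕ, j < 8 → j ≠ 1 → r ^ j ≠ w → ¬ IsConj r (r ^ j) := by
    intro j hj hj1 hjw hcon
    obtain ⟨s, hs, hs2⟩ := exists_mem_sylow P hrP hnorm ⟨j, by simp⟩ hcon
    rcases hw s hs with h | h
    · rw [h] at hs2
      exact hne 1 j (by norm_num) hj (Ne.symm hj1) (by rw [pow_one]; exact hs2)
    · exact hjw (hs2.symm.trans h)
  refine ⟨r, hrP, hor, ?_⟩
  by_cases h3 : r ^ 3 = w
  · refine ⟨r ^ 5, pow_mem hrP 5, hord 5 (by norm_num), hcl 5 (by norm_num) (by norm_num) ?_⟩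
    rw [← h3]
    exact hne 5 3 (by norm_num) (by norm_num) (by norm_num)
  · exact ⟨r ^ 3, pow_mem hrP 3, hord 3 (by norm_num), hcl 3 (by norm_num) (by norm_num) h3⟩

open Cfsg.Agent.H634.TwoA in
theorem rank_add_four_le [Fact (Nat.Prime 2)] (hM : IsPModular 2 M) (P : Sylow 2 G) {n : ℕ} (hn : 4 ≤ n)
    (hP : Nat.card P = 2 ^ n) (h4 : (commutator P).index = 4) :
    blockRank 2 (principalBlock M G) + 4 ≤ Nat.card (principalBlock M G) := by
  classical
  obtain ⟨r, hrP, hor, y, hyP, hoy, hry⟩ := exists_gen P hn hP h4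
  have e2 : orderOf (r ^ (2 ^ (n - 2))) = 2 := by
    rw [orderOf_pow, hor]
    have : (2 : ℕ) ^ (n - 1) = 2 ^ (n - 2) * 2 := by rw [← pow_succ]; congr 1; omega
    rw [this, Nat.gcd_eq_right (Dvd.intro _ rfl), Nat.mul_div_cancel_left _ (by positivity)]
  have e4 : orderOf (r ^ (2 ^ (n - 3))) = 4 := by
    rw [orderOf_pow, hor]
    have : (2 : ℕ) ^ (n - 1) = 2 ^ (n - 3) * 4 := by
      rw [show (4 : ℕ) = 2 ^ 2 by norm_num, ← pow_add]; congr 1; omega
    rw [this, Nat.gcd_eq_right (Dvd.intro _ rfl), Nat.mul_div_cancel_left _ (by positivity)]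
  have h8 : 8 ≤ 2 ^ (n - 1) := by
    calc 8 = 2 ^ 3 := by norm_num
      _ ≤ _ := Nat.pow_le_pow_right (by norm_num) (by omega)
  set a := r ^ (2 ^ (n - 2)) with ha
  set b := r ^ (2 ^ (n - 3)) with hb
  have o1 : orderOf (1 : G) = 1 := orderOf_one
  let S : Finset G := {1, a, b, r, y}
  have hconj : ∀ x z : G, IsConj x z → orderOf x = orderOf z := fun x z h => by
    obtain ⟨g, hg⟩ := isConj_iff.1 h
    rw [← hg]
    exact (orderOf_injective (MulAut.conj g).toMonoidHom (MulAut.conj g).injective x).symm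
  have hinj : ∀ x ∈ S, ∀ z ∈ S, IsConj x z → x = z := by
    intro x hx z hz h
    have h1 := hconj x z h
    simp only [S, Finset.mem_insert, Finset.mem_singleton] at hx hz
    rcases hx with rfl | rfl | rfl | rfl | rfl <;> rcases hz with rfl | rfl | rfl | rfl | rfl <;>
      first
      | rfl
      | (exfalso; omega)
      | exact absurd h hry
      | exact absurd h.symm hry
  have hel : ∀ x ∈ S, ∃ k : ℕ, orderOf x = 2 ^ k := by
    intro x hx
    simp only [S, Finset.mem_insert, Finset.mem_singleton] at hx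
    rcases hx with rfl | rfl | rfl | rfl | rfl
    · exact ⟨0, by simp⟩
    · exact ⟨1, by rw [e2]; norm_num⟩
    · exact ⟨2, by rw [e4]; norm_num⟩
    · exact ⟨_, hor⟩
    · exact ⟨_, hoy⟩
  have hsum := sum_rank_le hM S hel hinj
  have hry' : r ≠ y := fun h => hry (h ▸ IsConj.refl r)
  have hne : ∀ x z : G, orderOf x ≠ orderOf z → x ≠ z := fun x z h h2 => h (by rw [h2])
  have n1 : (1 : G) ∉ ({a, b, r, y} : Finset G) := by
    simp only [Finset.mem_insert, Finset.mem_singleton, not_or]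
    exact ⟨hne _ _ (by omega), hne _ _ (by omega), hne _ _ (by omega), hne _ _ (by omega)⟩
  have n2 : a ∉ ({b, r, y} : Finset G) := by
    simp only [Finset.mem_insert, Finset.mem_singleton, not_or]
    exact ⟨hne _ _ (by omega), hne _ _ (by omega), hne _ _ (by omega)⟩
  have n3 : b ∉ ({r, y} : Finset G) := by
    simp only [Finset.mem_insert, Finset.mem_singleton, not_or]
    exact ⟨hne _ _ (by omega), hne _ _ (by omega)⟩
  have n4 : r ∉ ({y} : Finset G) := by simpa using hry'
  have hS : S = insert 1 (insert a (insert b (insert r {y}))) := rfl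
  rw [hS, Finset.sum_insert n1, Finset.sum_insert n2, Finset.sum_insert n3, Finset.sum_insert n4,
    Finset.sum_singleton, rank_one_eq hM] at hsum
  have p1 := H634.Cols.blockRank_pos (G := ↥(Subgroup.centralizer ({a} : Set G))) hM
  have p2 := H634.Cols.blockRank_pos (G := ↥(Subgroup.centralizer ({b} : Set G))) hM
  have p3 := H634.Cols.blockRank_pos (G := ↥(Subgroup.centralizer ({r} : Set G))) hM
  have p4 := H634.Cols.blockRank_pos (G := ↥(Subgroup.centralizer ({y} : Set G))) hM
  omega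

end Cfsg.Agent.H782.K5
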